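import Cfsg.Agent.TwoFusion.SEBasic
import Cfsg.Agent.TwoFusion.Basic
import Cfsg.Agent.SelfCentNC.Local
import Cfsg.Agent.PGroup.ClassTwo

/-!
# Groups in which the subgroups of a cyclic subgroup of even order share their normalizer: basics

For an involution `t` and a commuting element `x ≠ 1` of odd order, or with `t ∈ ⟨x⟩`,
the normalizer of `⟨x⟩` is `C(t)`.
-/

set_option autoImplicit false

namespace Cfsg.Agent.CycNorm

open Subgroup
open Cfsg.Agent.TwoFusion

/-- The hypothesis: the non-trivial subgroups of a cyclic subgroup of even order share its normalizer. -/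
abbrev Hyp (G : Type*) [Group G] : Prop :=
  ∀ X : Subgroup G, IsCyclic ↥X → Even (Nat.card ↥X) → ∀ Y : Subgroup G, Y ≤ X → Y ≠ ⊥ →
    Subgroup.normalizer (X : Set G) = Subgroup.normalizer (Y : Set G)

variable {G : Type*} [Group G]

theorem normalizer_zpowers_involution {t : G} (ht : orderOf t = 2) :
    normalizer (zpowers t : Set G) = centralizer ({t} : Set G) := by
  have htt := involution_mul_self ht
  have hti := involution_inv ht
  have hmem : ∀ y, y ∈ zpowers t ↔ y = 1 ∨ y = t := by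
    intro y
    constructor
    · rintro ⟨k, rfl⟩
      rcases Int.even_or_odd k with ⟨j, rfl⟩ | ⟨j, rfl⟩
      · left
        show t ^ (j + j) = 1
        rw [← two_mul, zpow_mul, zpow_two, htt, one_zpow]
      · right
        show t ^ (2 * j + 1) = t
        rw [zpow_add_one, zpow_mul, zpow_two, htt, one_zpow, one_mul]
    · rintro (rfl | rfl)
      · exact one_mem _
      · exact mem_zpowers _
  ext g
  rw [mem_centralizer_singleton_iff, mem_normalizer_iff]
  constructor
  · intro h
    have h1 := (hmem _).1 ((h t).1 (mem_zpowers t))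
    rcases h1 with h1 | h1
    · exact absurd (conj_eq_one_iff.1 h1) (involution_ne_one ht)
    · calc g * t = g * t * g⁻¹ * g := by group
        _ = t * g := by rw [h1]
  · intro h y
    rw [hmem, hmem]
    have h1 : g * t * g⁻¹ = t := by rw [h]; group
    constructor
    · rintro (rfl | rfl)
      · exact Or.inl (by group)
      · exact Or.inr h1
    · rintro (h2 | h2)
      · exact Or.inl (conj_eq_one_iff.1 h2)
      · refine Or.inr ?_
        calc y = g⁻¹ * (g * y * g⁻¹) * g := by group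
          _ = g⁻¹ * (t * g) := by rw [h2]; group
          _ = t := by rw [← h]; group

theorem mem_zpowers_mul_of_odd {t x : G} (ht : orderOf t = 2) (hc : Commute t x)
    (hx : Odd (orderOf x)) : t ∈ zpowers (t * x) ∧ x ∈ zpowers (t * x) := by
  obtain ⟨k, hk⟩ := hx
  have h1 : (t * x) ^ (2 * k + 1) = t := by
    rw [hc.mul_pow, ← hk, pow_orderOf_eq_one, mul_one, hk, pow_succ, pow_mul, pow_two,
      involution_mul_self ht, one_pow, one_mul]
  have h2 : t ∈ zpowers (t * x) := by
    have h := Subgroup.npow_mem_zpowers (t * x) (2 * k + 1)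
    rwa [h1] at h
  refine ⟨h2, ?_⟩
  have h3 := mul_mem (inv_mem h2) (mem_zpowers (t * x))
  rwa [inv_mul_cancel_left] at h3

theorem commute_of_normalizing {x y : G} (h1 : x * y * x⁻¹ ∈ zpowers y)
    (h2 : y * x * y⁻¹ ∈ zpowers x) (h : ∀ z, z ∈ zpowers x → z ∈ zpowers y → z = 1) :
    Commute x y := by
  have hc : x * y * x⁻¹ * y⁻¹ = 1 := by
    refine h _ ?_ (mul_mem h1 (inv_mem (mem_zpowers y)))
    have e : x * y * x⁻¹ * y⁻¹ = x * (y * x * y⁻¹)⁻¹ := by group
    rw [e]
    exact mul_mem (mem_zpowers x) (inv_mem h2)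
  show x * y = y * x
  calc x * y = (x * y * x⁻¹ * y⁻¹) * (y * x) := by group
    _ = y * x := by rw [hc, one_mul]

theorem commute_of_normalizing_coprime {x y : G} (h1 : x * y * x⁻¹ ∈ zpowers y)
    (h2 : y * x * y⁻¹ ∈ zpowers x) (h : Nat.Coprime (orderOf x) (orderOf y)) :
    Commute x y :=
  commute_of_normalizing h1 h2 fun _ hzx hzy => orderOf_eq_one_iff.1
    (Nat.eq_one_of_dvd_coprimes h (orderOf_dvd_of_mem_zpowers hzx)
      (orderOf_dvd_of_mem_zpowers hzy))

theorem involution_unique [Finite G] {x s t : G} (hs : orderOf s = 2) (ht : orderOf t = 2)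
    (hsx : s ∈ zpowers x) (htx : t ∈ zpowers x) : s = t := by
  by_contra hne
  exact SelfCentNC.not_cyclic_of_two hsx htx hs ht hne inferInstance

/-- An element of 2-power order with `x² ≠ 1` has a power of order four. -/
theorem exists_order_four {x : G} {k : ℕ} (hx : orderOf x = 2 ^ k) (h2 : x * x ≠ 1) :
    ∃ y ∈ zpowers x, orderOf y = 4 := by
  have hk : 2 ≤ k := by
    by_contra hk
    apply h2
    rw [← pow_two, ← orderOf_dvd_iff_pow_eq_one, hx]
    exact pow_dvd_pow 2 (show k ≤ 1 by omega)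
  refine ⟨x ^ 2 ^ (k - 2), Subgroup.npow_mem_zpowers x _, ?_⟩
  rw [orderOf_pow_of_dvd (by positivity) (hx ▸ pow_dvd_pow 2 (Nat.sub_le k 2)), hx,
    Nat.pow_div (Nat.sub_le k 2) (by norm_num), show k - (k - 2) = 2 by omega]

/-- An element of 2-power order other than one has a power of order two. -/
theorem exists_order_two {x : G} {k : ℕ} (hx : orderOf x = 2 ^ k) (h1 : x ≠ 1) :
    ∃ z ∈ zpowers x, orderOf z = 2 := by
  have hk : 1 ≤ k := by
    by_contra hk
    apply h1
    rw [← orderOf_eq_one_iff, hx, show k = 0 by omega, pow_zero]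
  refine ⟨x ^ 2 ^ (k - 1), Subgroup.npow_mem_zpowers x _, ?_⟩
  rw [orderOf_pow_of_dvd (by positivity) (hx ▸ pow_dvd_pow 2 (Nat.sub_le k 1)), hx,
    Nat.pow_div (Nat.sub_le k 1) (by norm_num), show k - (k - 1) = 1 by omega, pow_one]

theorem orderOf_sq_of_four {x : G} (hx : orderOf x = 4) : orderOf (x * x) = 2 := by
  rw [← pow_two, orderOf_pow_of_dvd two_ne_zero (by rw [hx]; norm_num), hx]

theorem exists_pow_two {S : Subgroup G} (hS : IsPGroup 2 S) {x : G} (hx : x ∈ S) :
    ∃ k : ℕ, orderOf x = 2 ^ k := by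
  obtain ⟨k, hk⟩ := IsPGroup.iff_orderOf.1 hS ⟨x, hx⟩
  exact ⟨k, by rwa [Subgroup.orderOf_mk] at hk⟩

/-- Every element is a product of powers of odd order and of 2-power order. -/
theorem exists_odd_two_parts [Finite G] (h : G) : ∃ a b : G, h = a * b ∧
    a ∈ zpowers h ∧ b ∈ zpowers h ∧ Odd (orderOf a) ∧ ∃ k : ℕ, orderOf b = 2 ^ k := by
  obtain ⟨k, m, hm, hn⟩ := Nat.exists_eq_two_pow_mul_odd (orderOf_pos h).ne'
  have hcop : IsCoprime ((2 ^ k : ℕ) : ℤ) (m : ℤ) :=
    Nat.isCoprime_iff_coprime.2 ((Nat.coprime_two_left.2 hm).pow_left k)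
  obtain ⟨α, β, hab⟩ := hcop
  refine ⟨h ^ (α * ((2 ^ k : ℕ) : ℤ)), h ^ (β * (m : ℤ)), ?_, Subgroup.zpow_mem_zpowers h _,
    Subgroup.zpow_mem_zpowers h _, ?_, ?_⟩
  · rw [← zpow_add, hab, zpow_one]
  · refine hm.of_dvd_nat (orderOf_dvd_of_pow_eq_one ?_)
    rw [← zpow_natCast, ← zpow_mul, mul_assoc, mul_comm α, ← Nat.cast_mul, ← hn, zpow_mul,
      zpow_natCast, pow_orderOf_eq_one, one_zpow]
  · obtain ⟨j, -, hj⟩ := (Nat.dvd_prime_pow Nat.prime_two).1
      (orderOf_dvd_of_pow_eq_one (x := h ^ (β * (m : ℤ))) (n := 2 ^ k) (by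
        rw [← zpow_natCast, ← zpow_mul, mul_assoc, mul_comm β, ← Nat.cast_mul, mul_comm m, ← hn,
          zpow_mul, zpow_natCast, pow_orderOf_eq_one, one_zpow]))
    exact ⟨j, hj⟩

theorem centralizer_conj_mem {t g c : G} :
    c ∈ centralizer ({g * t * g⁻¹} : Set G) ↔ g⁻¹ * c * g ∈ centralizer ({t} : Set G) := by
  rw [mem_centralizer_singleton_iff, mem_centralizer_singleton_iff]
  constructor <;> intro h
  · calc g⁻¹ * c * g * t = g⁻¹ * (c * (g * t * g⁻¹)) * g := by group
      _ = g⁻¹ * (g * t * g⁻¹ * c) * g := by rw [h]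
      _ = t * (g⁻¹ * c * g) := by group
  · calc c * (g * t * g⁻¹) = g * (g⁻¹ * c * g * t) * g⁻¹ := by group
      _ = g * (t * (g⁻¹ * c * g)) * g⁻¹ := by rw [h]
      _ = g * t * g⁻¹ * c := by group

section Hyp

variable [Finite G] (hG : Hyp G)
include hG

/-- The basic equality of normalizers. -/
theorem normalizer_eq {t x : G} (ht : orderOf t = 2) (hx1 : x ≠ 1) (hc : Commute t x)
    (h : Odd (orderOf x) ∨ t ∈ zpowers x) :
    normalizer (zpowers x : Set G) = centralizer ({t} : Set G) := by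
  obtain ⟨y, hty, hxy⟩ : ∃ y, t ∈ zpowers y ∧ x ∈ zpowers y := by
    rcases h with h | h
    · exact ⟨t * x, mem_zpowers_mul_of_odd ht hc h⟩
    · exact ⟨x, h, mem_zpowers x⟩
  have heven : Even (Nat.card ↥(zpowers y)) := by
    rw [even_iff_two_dvd, ← ht]
    exact Subgroup.orderOf_dvd_natCard _ hty
  rw [← hG (zpowers y) inferInstance heven (zpowers x) (zpowers_le.2 hxy)
      (by simpa [zpowers_eq_bot] using hx1),
    hG (zpowers y) inferInstance heven (zpowers t) (zpowers_le.2 hty)
      (by simpa [zpowers_eq_bot] using involution_ne_one ht), normalizer_zpowers_involution ht]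

theorem conj_mem {t x c : G} (ht : orderOf t = 2) (hc : Commute t x)
    (h : Odd (orderOf x) ∨ t ∈ zpowers x) (hct : Commute c t) :
    c * x * c⁻¹ ∈ zpowers x := by
  by_cases hx1 : x = 1
  · subst hx1; simp
  have h1 : c ∈ normalizer (zpowers x : Set G) := by
    rw [normalizer_eq hG ht hx1 hc h, mem_centralizer_singleton_iff]
    exact hct.eq
  exact (mem_normalizer_iff.1 h1 x).1 (mem_zpowers x)

theorem commute_of_mem_normalizer {t x c : G} (ht : orderOf t = 2) (hx1 : x ≠ 1) (hc : Commute t x)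
    (h : Odd (orderOf x) ∨ t ∈ zpowers x) (hcn : c ∈ normalizer (zpowers x : Set G)) :
    Commute c t := by
  rw [normalizer_eq hG ht hx1 hc h, mem_centralizer_singleton_iff] at hcn
  exact hcn

/-- Two involutions centralising the same non-trivial element of odd order have the same centraliser. -/
theorem centralizer_eq {t v a : G} (ht : orderOf t = 2) (hv : orderOf v = 2) (ha : a ≠ 1)
    (hodd : Odd (orderOf a)) (hta : Commute t a) (hva : Commute v a) :
    centralizer ({v} : Set G) = centralizer ({t} : Set G) := by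
  rw [← normalizer_eq hG hv ha hva (Or.inl hodd), ← normalizer_eq hG ht ha hta (Or.inl hodd)]

/-- An involution with another centraliser inverts the odd elements of `C(t)`. -/
theorem inverts {t v a : G} (ht : orderOf t = 2) (hv : orderOf v = 2) (hvt : Commute v t)
    (hodd : Odd (orderOf a)) (hta : Commute t a)
    (hne : centralizer ({v} : Set G) ≠ centralizer ({t} : Set G)) :
    v * a * v⁻¹ = a⁻¹ := by
  have hvv := involution_mul_self hv
  have hvi := involution_inv hv
  obtain ⟨k, hk⟩ := conj_mem hG ht hta (Or.inl hodd) hvt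
  simp only at hk
  set b := a * (v * a * v⁻¹) with hb
  have hba : b ∈ zpowers a := mul_mem (mem_zpowers a) ⟨k, hk⟩
  have hca : Commute a (v * a * v⁻¹) := by
    rw [← hk]; exact Commute.zpow_right (Commute.refl a) k
  have hvb : Commute v b := by
    show v * b = b * v
    calc v * b = (v * a * v⁻¹) * (v * v) * a * v⁻¹ := by rw [hb]; group
      _ = (v * a * v⁻¹) * a * v := by rw [hvv, mul_one, hvi]
      _ = b * v := by rw [← hca.eq]
  have hb1 : b = 1 := by
    by_contra hb1
    refine hne (centralizer_eq hG ht hv hb1 (hodd.of_dvd_nat (orderOf_dvd_of_mem_zpowers hba)) ?_ hvb)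
    obtain ⟨j, hj⟩ := hba
    rw [← hj]
    exact hta.zpow_right j
  exact (eq_inv_of_mul_eq_one_right hb1)

theorem odd_commute_step {t a b : G} (ht : orderOf t = 2) (ha : Odd (orderOf a)) (hb : Odd (orderOf b))
    (hta : Commute t a) (htb : Commute t b) (hle : orderOf a ≤ orderOf b)
    (ih : ∀ a' b' : G, Odd (orderOf a') → Odd (orderOf b') → Commute t a' → Commute t b' →
      orderOf a' + orderOf b' < orderOf a + orderOf b → Commute a' b') : Commute a b := by
  by_contra hab
  have hna : b * a * b⁻¹ ∈ zpowers a := conj_mem hG ht hta (Or.inl ha) htb.symm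
  have hnb : a * b * a⁻¹ ∈ zpowers b := conj_mem hG ht htb (Or.inl hb) hta.symm
  set c := a * b * a⁻¹ * b⁻¹ with hcdef
  have hcb : c ∈ zpowers b := mul_mem hnb (inv_mem (mem_zpowers b))
  have hca : c ∈ zpowers a := by
    rw [show c = a * (b * a * b⁻¹)⁻¹ by rw [hcdef]; group]
    exact mul_mem (mem_zpowers a) (inv_mem hna)
  have hcac : Commute c a := by obtain ⟨i, hi⟩ := hca; rw [← hi]; exact Commute.zpow_self a i
  have hcbc : Commute c b := by obtain ⟨i, hi⟩ := hcb; rw [← hi]; exact Commute.zpow_self b i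
  have hc1 : c ≠ 1 := fun h => hab (by
    show a * b = b * a
    calc a * b = c * (b * a) := by rw [hcdef]; group
      _ = b * a := by rw [h, one_mul])
  have hconjb : ∀ i : ℤ, a * b ^ i * a⁻¹ = c ^ i * b ^ i := by
    intro i
    rw [← conj_zpow, ← hcbc.mul_zpow, hcdef]
    group
  have hconja : ∀ i : ℤ, b * a ^ i * b⁻¹ = c ^ (-i) * a ^ i := by
    intro i
    have e : b * a * b⁻¹ = c⁻¹ * a := by rw [hcdef]; group
    rw [← conj_zpow, e, hcac.inv_left.mul_zpow, inv_zpow']
  have hcp_of : ∀ q : ℕ, q.Prime → q ∣ orderOf a ∨ q ∣ orderOf b → c ^ q = 1 := by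
    intro q hq hqd
    rcases hqd with hdvd | hdvd
    · have hlt : orderOf (a ^ q) < orderOf a := by
        rw [orderOf_pow_of_dvd hq.ne_zero hdvd]
        exact Nat.div_lt_self (orderOf_pos a) hq.one_lt
      have h1 : Commute (a ^ q) b := ih _ _ (ha.of_dvd_nat (orderOf_pow_dvd q)) hb
        (hta.pow_right q) htb (by omega)
      have h2 := hconja q
      rw [zpow_natCast, ← h1.eq, mul_inv_cancel_right] at h2
      have h3 : c ^ (-(q : ℤ)) = 1 := mul_right_cancel (h2.symm.trans (one_mul _).symm)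
      rwa [zpow_neg, inv_eq_one, zpow_natCast] at h3
    · have hlt : orderOf (b ^ q) < orderOf b := by
        rw [orderOf_pow_of_dvd hq.ne_zero hdvd]
        exact Nat.div_lt_self (orderOf_pos b) hq.one_lt
      have h1 : Commute a (b ^ q) := ih _ _ ha (hb.of_dvd_nat (orderOf_pow_dvd q))
        hta (htb.pow_right q) (by omega)
      have h2 := hconjb q
      rw [zpow_natCast, zpow_natCast, h1.eq, mul_inv_cancel_right] at h2
      exact mul_right_cancel (h2.symm.trans (one_mul _).symm)
  -- both orders are powers of the same prime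
  obtain ⟨p, hp, hpc⟩ : ∃ p : ℕ, p.Prime ∧ p ∣ orderOf c :=
    Nat.exists_prime_and_dvd fun h => hc1 (orderOf_eq_one_iff.1 h)
  haveI : Fact p.Prime := ⟨hp⟩
  have hpa : p ∣ orderOf a := hpc.trans (orderOf_dvd_of_mem_zpowers hca)
  have hpb : p ∣ orderOf b := hpc.trans (orderOf_dvd_of_mem_zpowers hcb)
  have hcp : orderOf c = p := orderOf_eq_prime (hcp_of p hp (Or.inl hpa)) hc1
  have hunique : ∀ q : ℕ, q.Prime → q ∣ orderOf a ∨ q ∣ orderOf b → q = p := by
    intro q hq hqd
    haveI : Fact q.Prime := ⟨hq⟩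
    rw [← hcp, orderOf_eq_prime (hcp_of q hq hqd) hc1]
  obtain ⟨m, hm⟩ : ∃ m, orderOf a = p ^ m :=
    ⟨_, Nat.eq_prime_pow_of_unique_prime_dvd (orderOf_pos a).ne' fun hq hd => hunique _ hq (Or.inl hd)⟩
  obtain ⟨l, hl⟩ : ∃ l, orderOf b = p ^ l :=
    ⟨_, Nat.eq_prime_pow_of_unique_prime_dvd (orderOf_pos b).ne' fun hq hd => hunique _ hq (Or.inr hd)⟩
  have hml : m ≤ l := (Nat.pow_le_pow_iff_right hp.one_lt).1 (hm ▸ hl ▸ hle)
  -- the socle of a cyclic `p`-group
  have hsocle : ∀ (x : G) (r : ℕ), orderOf x = p ^ r → c ∈ zpowers x → 1 ≤ r →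
      x ^ p ^ (r - 1) ∈ zpowers c ∧ c ∈ zpowers (x ^ p ^ (r - 1)) := by
    intro x r hx hcx hr
    have hcard : orderOf (x ^ p ^ (r - 1)) = p := by
      rw [orderOf_pow_of_dvd (pow_ne_zero _ hp.ne_zero) (hx ▸ pow_dvd_pow p (Nat.sub_le r 1)), hx,
        Nat.pow_div (Nat.sub_le r 1) hp.pos, show r - (r - 1) = 1 by omega, pow_one]
    have heq : zpowers (x ^ p ^ (r - 1)) = zpowers c := by
      obtain ⟨i, hi⟩ := hcx
      simp only at hi
      have h1 : x ^ (i * (p : ℤ)) = 1 := by
        rw [zpow_mul, hi, zpow_natCast, ← hcp, pow_orderOf_eq_one]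
      rw [← orderOf_dvd_iff_zpow_eq_one, hx, show r = r - 1 + 1 by omega, pow_succ, Nat.cast_mul] at h1
      obtain ⟨j, rfl⟩ := Int.dvd_of_mul_dvd_mul_right (by exact_mod_cast hp.ne_zero) h1
      symm
      refine Subgroup.eq_of_le_of_card_ge (zpowers_le.2 ⟨j, ?_⟩) (by
        rw [Nat.card_zpowers, Nat.card_zpowers, hcard, hcp])
      show (x ^ p ^ (r - 1)) ^ j = c
      rw [← hi, zpow_mul, zpow_natCast]
    exact ⟨heq ▸ mem_zpowers _, heq.symm ▸ mem_zpowers c⟩
  have hl1 : 1 ≤ l := Nat.one_le_iff_ne_zero.2 fun h => by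
    rw [h, pow_zero] at hl; rw [hl] at hpb; exact hp.not_dvd_one hpb
  have hm1 : 1 ≤ m := Nat.one_le_iff_ne_zero.2 fun h => by
    rw [h, pow_zero] at hm; rw [hm] at hpa; exact hp.not_dvd_one hpa
  have hm2 : 2 ≤ m := by
    by_contra hm2
    obtain ⟨j, hj⟩ := (hsocle a m hm hca hm1).1
    simp only [show m - 1 = 0 by omega, pow_zero, pow_one] at hj
    exact hab (hj ▸ hcbc.zpow_left j)
  -- a better choice in `a⟨b⟩`
  obtain ⟨j, hj⟩ := (hsocle a m hm hca hm1).1
  simp only at hj
  obtain ⟨k, hk⟩ := (hsocle b l hl hcb hl1).2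
  simp only at hk
  set i : ℤ := -((p : ℤ) ^ (l - m) * (k * j)) with hi
  have hyn : (b ^ i) ^ p ^ (m - 1) = (a ^ p ^ (m - 1))⁻¹ := by
    rw [← hj, ← hk, ← zpow_natCast (b ^ i), ← zpow_natCast b, ← zpow_mul, ← zpow_mul, ← zpow_mul,
      ← zpow_neg, hi, show l - 1 = (l - m) + (m - 1) by omega, pow_add]
    congr 1
    push_cast
    ring
  have he1 : b ^ i * a = c ^ (-i) * (a * b ^ i) := by
    calc b ^ i * a = c ^ (-i) * (c ^ i * b ^ i) * a := by group
      _ = c ^ (-i) * (a * b ^ i) := by rw [← hconjb i]; group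
  set e := c ^ (-i) with he
  have hea : Commute e a := hcac.zpow_left _
  have hey : Commute e (b ^ i) := hcbc.zpow_zpow _ _
  have hpow : ∀ n : ℕ, (a * b ^ i) ^ n = a ^ n * (b ^ i) ^ n * e ^ n.choose 2 := by
    intro n
    have hswap : ∀ r : ℕ, (b ^ i) ^ r * a = e ^ r * (a * (b ^ i) ^ r) := by
      intro r
      induction r with
      | zero => simp
      | succ r ihr =>
        calc (b ^ i) ^ (r + 1) * a = b ^ i * ((b ^ i) ^ r * a) := by rw [pow_succ', mul_assoc]
          _ = e ^ r * (b ^ i * a) * (b ^ i) ^ r := by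
              rw [ihr, ← mul_assoc, (hey.pow_left r).symm.eq, mul_assoc, mul_assoc, mul_assoc]
          _ = e ^ (r + 1) * (a * (b ^ i) ^ (r + 1)) := by
              rw [he1, pow_succ e, pow_succ' (b ^ i)]; simp only [mul_assoc]
    induction n with
    | zero => simp
    | succ n ihn =>
      rw [pow_succ (a * b ^ i), ihn, Nat.choose_succ_succ, Nat.choose_one_right, pow_add e]
      calc a ^ n * (b ^ i) ^ n * e ^ n.choose 2 * (a * b ^ i)
          = a ^ n * ((b ^ i) ^ n * a) * b ^ i * e ^ n.choose 2 := by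
            rw [mul_assoc _ (e ^ n.choose 2), ((hea.mul_right hey).pow_left _).eq]
            simp only [mul_assoc]
        _ = a ^ n * a * ((b ^ i) ^ n * b ^ i) * e ^ n * e ^ n.choose 2 := by
            rw [hswap, ((hea.mul_right (hey.pow_right n)).pow_left n).eq]
            simp only [mul_assoc]
            rw [← mul_assoc (e ^ n) (b ^ i), (hey.pow_left n).eq, mul_assoc]
        _ = a ^ (n + 1) * (b ^ i) ^ (n + 1) * (e ^ n * e ^ n.choose 2) := by
            rw [pow_succ, pow_succ]; simp only [mul_assoc]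
  have hodd : Odd (p ^ (m - 1)) := (hp.odd_of_ne_two fun h => by
    rw [h] at hpa; exact Nat.not_even_iff_odd.2 ha (even_iff_two_dvd.2 hpa)).pow
  have he0 : e ^ (p ^ (m - 1)).choose 2 = 1 := by
    refine orderOf_dvd_iff_pow_eq_one.1 ((orderOf_dvd_of_pow_eq_one (n := p) ?_).trans
      ((dvd_pow_self p (by omega)).trans (PGroup.dvd_choose_two_of_odd hodd)))
    rw [he, ← zpow_natCast, ← zpow_mul, mul_comm, zpow_mul, zpow_natCast, ← hcp, pow_orderOf_eq_one,
      one_zpow]
  have hnew : orderOf (a * b ^ i) < orderOf a := by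
    refine lt_of_le_of_lt (Nat.le_of_dvd (pow_pos hp.pos _) (orderOf_dvd_of_pow_eq_one (n := p ^ (m - 1)) ?_))
      (hm ▸ Nat.pow_lt_pow_right hp.one_lt (by omega))
    rw [hpow, hyn, he0, mul_one, mul_inv_cancel]
  have hodd' : Odd (orderOf (a * b ^ i)) := by
    refine hodd.of_dvd_nat (orderOf_dvd_of_pow_eq_one ?_)
    rw [hpow, hyn, he0, mul_one, mul_inv_cancel]
  have h := ih _ _ hodd' hb (hta.mul_right (htb.zpow_right i)) htb (by omega)
  apply hab
  have : a = a * b ^ i * b ^ (-i) := by group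
  rw [this]
  exact h.mul_left (Commute.zpow_self b _)

/-- The elements of odd order of `C(t)` commute. -/
theorem odd_commute {t a b : G} (ht : orderOf t = 2) (ha : Odd (orderOf a)) (hb : Odd (orderOf b))
    (hta : Commute t a) (htb : Commute t b) : Commute a b := by
  induction hn : orderOf a + orderOf b using Nat.strong_induction_on generalizing a b with
  | _ n ih =>
  rcases le_total (orderOf a) (orderOf b) with h | h
  · exact odd_commute_step hG ht ha hb hta htb h fun a' b' ha' hb' hta' htb' hlt =>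
      ih _ (by omega) ha' hb' hta' htb' rfl
  · exact (odd_commute_step hG ht hb ha htb hta h fun a' b' ha' hb' hta' htb' hlt =>
      ih _ (by omega) ha' hb' hta' htb' rfl).symm

end Hyp

end Cfsg.Agent.CycNorm
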