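import Cfsg.Agent.CyclicEvenNorm.Basic
import Cfsg.Agent.AutPSL.Main
import Cfsg.Agent.AutPSL.Kernel
import Cfsg.Agent.AutPSL.FieldCard
import Cfsg.Agent.AutPSL.Outer
import Cfsg.Agent.Linear.Orders

/-!
# Groups in which the subgroups of a cyclic subgroup of even order share their normalizer:
no field automorphisms over `PSL(2, q)`
-/

set_option autoImplicit false

namespace Cfsg.Agent.CycNorm

open Subgroup
open scoped Matrix
open Matrix (GeneralLinearGroup SpecialLinearGroup)
open Cfsg.Agent.AutPSL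

theorem Hyp.of_injective {G H : Type*} [Group G] [Group H] (hG : Hyp G) (f : H →* G)
    (hf : Function.Injective f) : Hyp H := by
  intro X hX hev Y hY hY1
  haveI := hX
  have key : ∀ Z : Subgroup H, Subgroup.normalizer (Z : Set H) =
      (Subgroup.normalizer ((Z.map f : Subgroup G) : Set G)).comap f := fun Z => by
    rw [Subgroup.comap_normalizer_eq_of_le_range (Subgroup.map_le_range f Z),
      Subgroup.comap_map_eq_self_of_injective hf]
  rw [key X, key Y, hG (X.map f) (isCyclic_of_surjective _ (f.subgroupMap_surjective X))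
    (by rwa [Subgroup.card_map_of_injective hf]) (Y.map f) (Subgroup.map_mono hY)
    (by rwa [Ne, Subgroup.map_eq_bot_iff_of_injective _ hf])]

section Ambient

variable {G : Type*} [Group G] {A : Subgroup G} [Finite A] (hA : Hyp ↥A)
include hA

theorem ambient_conj_mem {t x c : G} (htA : t ∈ A) (hxA : x ∈ A) (hcA : c ∈ A) (ht : orderOf t = 2)
    (htx : Commute t x) (h : Odd (orderOf x) ∨ t ∈ zpowers x) (hct : Commute c t) :
    c * x * c⁻¹ ∈ zpowers x := by
  obtain ⟨i, hi⟩ := conj_mem (t := (⟨t, htA⟩ : A)) (x := ⟨x, hxA⟩) (c := ⟨c, hcA⟩) hA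
    (by rwa [Subgroup.orderOf_mk]) (Subtype.ext htx.eq) (by
      refine h.imp (fun h => by rwa [Subgroup.orderOf_mk]) ?_
      rintro ⟨i, hi⟩
      exact ⟨i, Subtype.ext hi⟩) (Subtype.ext hct.eq)
  exact ⟨i, congrArg Subtype.val hi⟩

theorem ambient_commute {t x c : G} (htA : t ∈ A) (hxA : x ∈ A) (hcA : c ∈ A) (ht : orderOf t = 2)
    (hx1 : x ≠ 1) (htx : Commute t x) (h : Odd (orderOf x)) (hcx : Commute c x) : Commute c t := by
  have hnorm : (⟨c, hcA⟩ : A) ∈ Subgroup.normalizer (zpowers (⟨x, hxA⟩ : A) : Set A) := by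
    have hc : Commute (⟨c, hcA⟩ : A) ⟨x, hxA⟩ := Subtype.ext hcx.eq
    rw [mem_normalizer_iff]
    intro y
    constructor
    · rintro ⟨i, rfl⟩
      exact ⟨i, by rw [(hc.zpow_right i).eq, mul_inv_cancel_right]⟩
    · rintro ⟨i, hi⟩
      refine ⟨i, ?_⟩
      simp only at hi ⊢
      calc (⟨x, hxA⟩ : A) ^ i = (⟨c, hcA⟩ : A)⁻¹ * (⟨c, hcA⟩ * (⟨x, hxA⟩ : A) ^ i) := by group
        _ = (⟨c, hcA⟩ : A)⁻¹ * ((⟨x, hxA⟩ : A) ^ i * ⟨c, hcA⟩) := by rw [(hc.zpow_right i).eq]
        _ = y := by rw [hi]; group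
  exact congrArg Subtype.val (commute_of_mem_normalizer (t := (⟨t, htA⟩ : A)) (x := ⟨x, hxA⟩) hA
    (by rwa [Subgroup.orderOf_mk]) (fun h => hx1 (congrArg Subtype.val h)) (Subtype.ext htx.eq)
    (Or.inl (by rwa [Subgroup.orderOf_mk])) hnorm).eq

end Ambient

variable {F : Type*} [Field F]

local notation "SL₂" => Matrix.SpecialLinearGroup (Fin 2) F
local notation "GL₂" => GL (Fin 2) F
local notation "sc" => (Matrix.GeneralLinearGroup.scalar (Fin 2) : Fˣ →* GL (Fin 2) F)
local notation "AutL" => MulAut (Matrix.ProjectiveSpecialLinearGroup (Fin 2) F)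

/-- `a ↦ diag(a, 1)`. -/
def dia : Fˣ →* GL₂ where
  toFun a := ⟨!![(a : F), 0; 0, 1], !![((a⁻¹ : Fˣ) : F), 0; 0, 1],
    by ext i j; fin_cases i <;> fin_cases j <;> simp [Matrix.mul_apply, Fin.sum_univ_two],
    by ext i j; fin_cases i <;> fin_cases j <;> simp [Matrix.mul_apply, Fin.sum_univ_two]⟩
  map_one' := Units.ext (by ext i j; fin_cases i <;> fin_cases j <;> simp)
  map_mul' a b := Units.ext (by
    ext i j; fin_cases i <;> fin_cases j <;> simp [Matrix.mul_apply, Fin.sum_univ_two])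

theorem dia_coe (a : Fˣ) : ((dia a : GL₂) : Matrix (Fin 2) (Fin 2) F) = !![(a : F), 0; 0, 1] := rfl

theorem det_dia (a : Fˣ) : GeneralLinearGroup.det (dia a : GL₂) = a :=
  Units.ext (by simp [Matrix.det_fin_two, dia_coe])

theorem map_dia (σ : F ≃+* F) (a : Fˣ) :
    GeneralLinearGroup.map σ.toRingHom (dia a : GL₂) = dia (Units.map σ.toRingHom.toMonoidHom a) :=
  Units.ext (by ext i j; fin_cases i <;> fin_cases j <;> simp [dia_coe])

/-- The image of `diag(a, 1)`. -/
def dAut : Fˣ →* AutL := conjAut.comp dia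

theorem exists_scalar_of_conjAut_eq {g h : GL₂} (e : (conjAut g : AutL) = conjAut h) :
    ∃ c : F, (h : Matrix (Fin 2) (Fin 2) F) = c • (g : Matrix (Fin 2) (Fin 2) F) := by
  have h1 : conjAut (g⁻¹ * h) = (1 : AutL) := by rw [map_mul, map_inv, e, inv_mul_cancel]
  obtain ⟨c, hc⟩ := GeneralLinearGroup.mem_center_iff_val_mem_range_scalar.1
    ((conjAut_eq_one_iff le_rfl).1 h1)
  refine ⟨c, ?_⟩
  have h2 : (h : Matrix (Fin 2) (Fin 2) F) =
      (g : Matrix (Fin 2) (Fin 2) F) * ((g⁻¹ * h : GL₂) : Matrix (Fin 2) (Fin 2) F) := by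
    rw [← Units.val_mul, mul_inv_cancel_left]
  rw [h2, ← hc, Matrix.scalar_apply, ← Matrix.smul_one_eq_diagonal, Matrix.mul_smul, mul_one]

theorem dAut_injective : Function.Injective (dAut : Fˣ →* AutL) := by
  rw [injective_iff_map_eq_one]
  intro a ha
  obtain ⟨c, hc⟩ := exists_scalar_of_conjAut_eq (g := dia a) (h := 1) (by rw [map_one]; exact ha)
  have h0 := congrFun (congrFun hc 0) 0
  have h1 := congrFun (congrFun hc 1) 1
  simp [dia_coe] at h0 h1
  apply Units.ext
  rw [← h1, one_mul] at h0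
  exact h0.symm

/-- The image of an element of `SL₂`. -/
def inn : SL₂ →* AutL := conjAut.comp Matrix.SpecialLinearGroup.toGL

theorem inn_eq_conj (s : SL₂) : (inn s : AutL) = MulAut.conj (proj s) := conjAut_toGL s

theorem inn_scalar {s s' : SL₂} (e : (inn s : AutL) = inn s') :
    ∃ c : F, (s' : Matrix (Fin 2) (Fin 2) F) = c • (s : Matrix (Fin 2) (Fin 2) F) :=
  exists_scalar_of_conjAut_eq (g := SpecialLinearGroup.toGL s) (h := SpecialLinearGroup.toGL s') e

theorem inn_ne_one {s : SL₂} (h : (s : Matrix (Fin 2) (Fin 2) F) 0 1 ≠ 0) : (inn s : AutL) ≠ 1 := by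
  intro e
  obtain ⟨c, hc⟩ := inn_scalar (s := 1) (s' := s) (by rw [map_one]; exact e.symm)
  have := congrFun (congrFun hc 0) 1
  simp at this
  exact h this

theorem fieldAut_inn (σ : F ≃+* F) (s : SL₂) :
    fieldAut σ * inn s = (inn (Matrix.SpecialLinearGroup.map σ.toRingHom s) : AutL) * fieldAut σ := by
  show fieldAut σ * conjAut _ = conjAut _ * fieldAut σ
  rw [fieldAut_mul_conjAut]
  congr 2
  exact Units.ext rfl

theorem orderOf_inn_weyl : orderOf (inn (weyl F) : AutL) = 2 := by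
  refine orderOf_eq_prime ?_ (inn_ne_one (by simp [weyl]))
  have e : weyl F * weyl F = -1 := Subtype.ext (by
    show !![(0 : F), 1; -1, 0] * !![(0 : F), 1; -1, 0] = -1
    ext i j; fin_cases i <;> fin_cases j <;> simp)
  rw [pow_two, ← map_mul, e]
  refine (conjAut_eq_one_iff le_rfl).2 (GeneralLinearGroup.mem_center_iff_val_mem_range_scalar.2 ⟨-1, ?_⟩)
  ext i j; fin_cases i <;> fin_cases j <;> simp

theorem weyl_dAut (a : Fˣ) : inn (weyl F) * dAut a * (inn (weyl F))⁻¹ = (dAut a⁻¹ : AutL) := by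
  rw [mul_inv_eq_iff_eq_mul]
  show conjAut _ * conjAut _ = conjAut _ * conjAut _
  rw [← map_mul, ← map_mul]
  have e : Matrix.SpecialLinearGroup.toGL (weyl F) * dia a = sc a * (dia a⁻¹ * Matrix.SpecialLinearGroup.toGL (weyl F)) := by
    refine Units.ext ?_
    rw [Units.val_mul, Units.val_mul, Units.val_mul, coe_sc, dia_coe, dia_coe,
      show (SpecialLinearGroup.toGL (weyl F) : Matrix (Fin 2) (Fin 2) F) = !![0, 1; -1, 0] from rfl]
    ext i j
    fin_cases i <;> fin_cases j <;> simp [Matrix.mul_apply, Fin.sum_univ_two]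
  rw [e, map_mul, conjAut_sc le_rfl, one_mul]

variable [Finite F]

theorem mem_of_isSquare {A : Subgroup AutL} (hinner : ∀ s : SL₂, inn s ∈ A) {d : GL₂}
    (hd : IsSquare (GeneralLinearGroup.det d)) : conjAut d ∈ A := by
  obtain ⟨c, hc⟩ := hd
  have h1 : (sc c⁻¹ * d : GL₂) ∈ (SpecialLinearGroup.toGL : SL₂ →* GL₂).range := by
    rw [Linear.range_toGL_eq_ker_det, MonoidHom.mem_ker, map_mul, det_sc, hc]
    apply Units.ext
    simp [pow_two]
  obtain ⟨s, hs⟩ := h1
  have h2 : conjAut d = (inn s : AutL) := by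
    show conjAut d = conjAut (SpecialLinearGroup.toGL s)
    rw [hs, map_mul, conjAut_sc le_rfl, one_mul]
  rw [h2]
  exact hinner s

theorem isSquare_mul_of_not {a b : Fˣ} (ha : ¬ IsSquare a) (hb : ¬ IsSquare b) : IsSquare (a * b) := by
  obtain ⟨η, hη⟩ := IsCyclic.exists_generator (α := Fˣ)
  obtain ⟨i, hi⟩ := hη a
  obtain ⟨j, hj⟩ := hη b
  simp only at hi hj
  rcases Int.even_or_odd i with ⟨k, rfl⟩ | ⟨k, rfl⟩
  · exact absurd ⟨η ^ k, by rw [← zpow_add, hi]⟩ ha
  rcases Int.even_or_odd j with ⟨l, rfl⟩ | ⟨l, rfl⟩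
  · exact absurd ⟨η ^ l, by rw [← zpow_add, hj]⟩ hb
  exact ⟨η ^ (k + l + 1), by rw [← hi, ← hj, ← zpow_add, ← zpow_add]; congr 1; ring⟩

theorem isSquare_map_iff (σ : F ≃+* F) (a : Fˣ) :
    IsSquare (Units.map σ.toRingHom.toMonoidHom a) ↔ IsSquare a := by
  refine ⟨fun ⟨c, hc⟩ => ⟨Units.map σ.symm.toRingHom.toMonoidHom c, Units.ext ?_⟩,
    fun ⟨c, hc⟩ => ⟨Units.map σ.toRingHom.toMonoidHom c, by rw [hc, map_mul]⟩⟩
  have := congrArg Units.val hc
  simp at this ⊢
  rw [← map_mul, ← this, RingEquiv.symm_apply_apply]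

/-- Powers of `conjAut d * fieldAut σ`. -/
theorem exists_pow_eq (σ : F ≃+* F) (d : GL₂) (k : ℕ) :
    ∃ d' : GL₂, (conjAut d * fieldAut σ : AutL) ^ k = conjAut d' * fieldAut (σ ^ k) ∧
      (¬ IsSquare (GeneralLinearGroup.det d) →
        (IsSquare (GeneralLinearGroup.det d') ↔ Even k)) := by
  induction k with
  | zero => exact ⟨1, by simp, fun _ => by simp⟩
  | succ k ih =>
    obtain ⟨d', h1, h2⟩ := ih
    refine ⟨d' * GeneralLinearGroup.map (σ ^ k).toRingHom d, ?_, fun hd => ?_⟩
    · rw [pow_succ, h1, map_mul, mul_assoc, ← mul_assoc (fieldAut (σ ^ k)), fieldAut_mul_conjAut,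
        pow_succ, map_mul]
      simp only [mul_assoc]
    · have h3 : ¬ IsSquare (GeneralLinearGroup.det (GeneralLinearGroup.map (σ ^ k).toRingHom d)) := by
        rw [GeneralLinearGroup.map_det]
        exact fun h => hd ((isSquare_map_iff (σ ^ k) _).1 h)
      rw [map_mul, Nat.even_add_one]
      constructor
      · intro h hk
        refine h3 ?_
        have := (h2 hd).2 hk
        obtain ⟨c, hc⟩ := this
        obtain ⟨e, he⟩ := h
        refine ⟨c⁻¹ * e, ?_⟩
        calc GeneralLinearGroup.det (GeneralLinearGroup.map (σ ^ k).toRingHom d)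
            = (c * c)⁻¹ * (GeneralLinearGroup.det d' *
                GeneralLinearGroup.det (GeneralLinearGroup.map (σ ^ k).toRingHom d)) := by
              rw [hc]; group
          _ = c⁻¹ * e * (c⁻¹ * e) := by rw [he, mul_inv_rev, mul_mul_mul_comm]
      · intro hk
        exact isSquare_mul_of_not (fun h => hk ((h2 hd).1 h)) h3

/-- A prime-order field automorphism itself is absent, unless `q = 4`. -/
theorem fieldAut_not_mem {A : Subgroup AutL} [Finite A] (hA : Hyp ↥A) (hinner : ∀ s : SL₂, inn s ∈ A)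
    (hq4 : Nat.card F ≠ 4) {σ : F ≃+* F} (hr : (orderOf σ).Prime) : fieldAut σ ∉ A := by
  intro hmem
  have hord : orderOf (fieldAut σ : AutL) = orderOf σ := orderOf_injective fieldAut (fieldAut_injective le_rfl) σ
  have hfix : ∀ s : SL₂, (∀ i j, σ ((s : Matrix (Fin 2) (Fin 2) F) i j) = (s : Matrix (Fin 2) (Fin 2) F) i j) →
      Commute (fieldAut σ : AutL) (inn s) := fun s hs => by
    show fieldAut σ * inn s = inn s * fieldAut σ
    rw [fieldAut_inn]
    congr 2
    exact Subtype.ext (Matrix.ext fun i j => hs i j)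
  have hup : Commute (fieldAut σ : AutL) (inn (up 1)) := hfix _ (by
    intro i j; rw [up_coe]; fin_cases i <;> fin_cases j <;> simp)
  have hw : Commute (fieldAut σ : AutL) (inn (weyl F)) := hfix _ (by
    intro i j; fin_cases i <;> fin_cases j <;> simp [weyl])
  rcases hr.eq_two_or_odd' with h2 | hodd
  · -- an involution
    obtain ⟨p, hp⟩ := CharP.exists F
    haveI : Fact p.Prime := ⟨CharP.char_is_prime F p⟩
    rcases (Fact.out : p.Prime).eq_two_or_odd' with hp2 | hpo
    · subst hp2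
      haveI : Fintype ↥(fixedField σ) := Fintype.ofFinite _
      obtain ⟨α, hα, hα0, hα1⟩ : ∃ α : F, σ α = α ∧ α ≠ 0 ∧ α ≠ 1 := by
        by_contra hall
        push Not at hall
        have hle : Nat.card ↥(fixedField σ) ≤ 2 := by
          classical
          refine (Nat.card_le_card_of_injective (fun a : ↥(fixedField σ) => (⟨a.1, by
            simp only [Finset.mem_insert, Finset.mem_singleton]
            by_cases h : (a : F) = 0
            · exact Or.inl h
            · exact Or.inr (hall a a.2 h)⟩ : ({0, 1} : Finset F)))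
            fun a b h => Subtype.ext (congrArg Subtype.val h :)).trans ?_
          rw [Nat.card_eq_finsetCard]
          exact Finset.card_le_two
        have h1 : 1 < Nat.card ↥(fixedField σ) := Finite.one_lt_card
        have hc := card_fixedField_pow σ
        rw [h2, show Nat.card ↥(fixedField σ) = 2 by omega] at hc
        exact hq4 (by rw [hc]; norm_num)
      set D : SL₂ := ⟨!![α, 0; 0, α⁻¹], by simp [Matrix.det_fin_two, hα0]⟩ with hD
      have hDc : Commute (fieldAut σ : AutL) (inn D) := hfix _ (by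
        intro i j; fin_cases i <;> fin_cases j <;> simp [hD, hα])
      have hdiag : ∀ n : ℕ, ((D ^ n : SL₂) : Matrix (Fin 2) (Fin 2) F) = !![α ^ n, 0; 0, α⁻¹ ^ n] := by
        intro n
        induction n with
        | zero => ext i j; fin_cases i <;> fin_cases j <;> simp
        | succ n ih =>
          rw [pow_succ, Matrix.SpecialLinearGroup.coe_mul, ih, hD]
          ext i j
          fin_cases i <;> fin_cases j <;> simp [Matrix.mul_apply, Fin.sum_univ_two, pow_succ]
      have hDodd : Odd (orderOf (inn D : AutL)) := by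
        haveI := Fintype.ofFinite F
        obtain ⟨n, -, hn⟩ := FiniteField.card F 2
        have h1 : D ^ (Fintype.card F - 1) = 1 := Subtype.ext (by
          rw [hdiag, FiniteField.pow_card_sub_one_eq_one α hα0,
            FiniteField.pow_card_sub_one_eq_one α⁻¹ (inv_ne_zero hα0)]
          ext i j; fin_cases i <;> fin_cases j <;> simp)
        refine Odd.of_dvd_nat ?_ (orderOf_dvd_of_pow_eq_one (n := Fintype.card F - 1)
          (by rw [← map_pow, h1, map_one]))
        rw [hn]
        exact Nat.Even.sub_odd Nat.one_le_two_pow (even_two.pow_of_ne_zero n.ne_zero) odd_one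
      have hmem' := ambient_conj_mem hA hmem (hinner D) (hinner (up 1)) (hord.trans h2) hDc
        (Or.inl hDodd) hup.symm
      obtain ⟨n, hn⟩ := (MonoidHom.isOfFinOrder inn (isOfFinOrder_of_finite D)).mem_powers_iff_mem_zpowers.2 hmem'
      simp only at hn
      rw [eq_mul_inv_iff_mul_eq, ← map_pow, ← map_mul, ← map_mul] at hn
      obtain ⟨c, hc⟩ := inn_scalar hn
      rw [Matrix.SpecialLinearGroup.coe_mul, Matrix.SpecialLinearGroup.coe_mul, hdiag, up_coe, hD] at hc
      have h00 := congrFun (congrFun hc 0) 0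
      have h01 := congrFun (congrFun hc 0) 1
      simp [Matrix.mul_apply, Fin.sum_univ_two] at h00 h01
      have h1 : α * α = 1 := by
        nth_rw 2 [h00]
        rw [← h01, mul_inv_cancel₀ hα0]
      haveI : ExpChar F 2 := ExpChar.prime Nat.prime_two
      exact hα1 (sub_eq_zero.1 (mul_self_eq_zero.1 (show (α - 1) * (α - 1) = 0 by
        linear_combination h1 + (1 - α) * (CharTwo.two_eq_zero : (2 : F) = 0))))
    · -- odd characteristic
      have hxodd : Odd (orderOf (inn (up 1) : AutL)) := by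
        refine hpo.of_dvd_nat (orderOf_dvd_of_pow_eq_one ?_)
        rw [← map_pow, show (up (1 : F)) ^ p = 1 from ?_, map_one]
        have : ∀ n : ℕ, up (1 : F) ^ n = up (n : F) := by
          intro n
          induction n with
          | zero => simp [up_zero]
          | succ n ih => rw [pow_succ, ih, ← up_add]; simp
        rw [this, CharP.cast_eq_zero, up_zero]
      obtain ⟨i, hi⟩ := ambient_conj_mem hA hmem (hinner (up 1)) (hinner (weyl F)) (hord.trans h2) hup
        (Or.inl hxodd) hw.symm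
      simp only at hi
      rw [← map_mul, ← map_inv, ← map_mul, weyl_up, ← map_zpow] at hi
      obtain ⟨c, hc⟩ := inn_scalar hi
      have hup' : ∀ n : ℕ, up (1 : F) ^ n = up (n : F) := by
        intro n
        induction n with
        | zero => simp [up_zero]
        | succ n ih => rw [pow_succ, ih, ← up_add]; simp
      obtain ⟨b, hb⟩ : ∃ b, up (1 : F) ^ i = up b := by
        obtain ⟨n, rfl | rfl⟩ := Int.eq_nat_or_neg i
        · exact ⟨n, by rw [zpow_natCast, hup']⟩
        · exact ⟨-(n : F), by rw [_root_.zpow_neg, zpow_natCast, hup', up_inv]⟩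
      rw [hb, up_coe, lo_coe] at hc
      have := congrFun (congrFun hc 1) 0
      simp at this
  · -- odd prime order
    have h1 : fieldAut σ ≠ (1 : AutL) := fun h => hr.ne_one (by rw [← hord, h, orderOf_one])
    have hc := ambient_commute hA (hinner (weyl F)) hmem (hinner (up 1)) orderOf_inn_weyl h1 hw.symm
      (hord ▸ hodd) hup.symm
    have hc' : (inn (up 1 * weyl F) : AutL) = inn (weyl F * up 1) := by rw [map_mul, map_mul, hc.eq]
    obtain ⟨c, hc⟩ := inn_scalar hc'
    rw [Matrix.SpecialLinearGroup.coe_mul, Matrix.SpecialLinearGroup.coe_mul, up_coe] at hc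
    have h00 := congrFun (congrFun hc 0) 0
    have h01 := congrFun (congrFun hc 0) 1
    simp [weyl, Matrix.mul_apply, Fin.sum_univ_two] at h00 h01
    rw [h00] at h01
    simp at h01

/-- There are no field automorphisms. -/
theorem field_eq_one {A : Subgroup AutL} [Finite A] (hA : Hyp ↥A) (hinner : ∀ s : SL₂, inn s ∈ A)
    (hq4 : Nat.card F ≠ 4) {σ₀ : F ≃+* F} {d₀ : GL₂} (h : conjAut d₀ * fieldAut σ₀ ∈ A) : σ₀ = 1 := by
  by_contra hne
  have ho : orderOf σ₀ ≠ 1 := fun h => hne (orderOf_eq_one_iff.1 h)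
  obtain ⟨r, hr, hdvd⟩ := Nat.exists_prime_and_dvd ho
  obtain ⟨d, hd, -⟩ := exists_pow_eq σ₀ d₀ (orderOf σ₀ / r)
  set σ := σ₀ ^ (orderOf σ₀ / r) with hσdef
  have hpos := orderOf_pos_field σ₀
  have hσ : orderOf σ = r := orderOf_pow_orderOf_div hpos.ne' hdvd
  have hσr : σ ^ r = 1 := by rw [← hσ, pow_orderOf_eq_one]
  have hmem : conjAut d * fieldAut σ ∈ A := hd ▸ pow_mem h _
  have hfield : ∀ e : GL₂, conjAut e ∈ A → conjAut e * fieldAut σ ∈ A → False := fun e he hem =>
    fieldAut_not_mem hA hinner hq4 (σ := σ) (by rw [hσ]; exact hr) (by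
      have := mul_mem (inv_mem he) hem
      rwa [inv_mul_cancel_left] at this)
  by_cases hsq : IsSquare (GeneralLinearGroup.det d)
  · exact hfield d (mem_of_isSquare hinner hsq) hmem
  rcases hr.eq_two_or_odd' with h2 | hodd
  swap
  · -- odd prime order
    obtain ⟨d', hd', hpar⟩ := exists_pow_eq σ d r
    rw [hσr, map_one, mul_one] at hd'
    have hd'A : conjAut d' ∈ A := hd' ▸ pow_mem hmem r
    refine hfield d ?_ hmem
    have h3 := mem_of_isSquare hinner (d := d * d') (by
      rw [map_mul]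
      exact isSquare_mul_of_not hsq fun h => Nat.not_even_iff_odd.2 hodd ((hpar hsq).1 h))
    rw [map_mul] at h3
    have := mul_mem h3 (inv_mem hd'A)
    rwa [mul_inv_cancel_right] at this
  -- order two and a non-square determinant
  subst h2
  obtain ⟨η, hη⟩ := IsCyclic.exists_generator (α := Fˣ)
  have hηsq : ¬ IsSquare η := fun ⟨c, hc⟩ => hsq (by
    obtain ⟨i, hi⟩ := hη (GeneralLinearGroup.det d)
    exact ⟨c ^ i, by simp only at hi; rw [← hi, hc, mul_zpow]⟩)
  have hηo : orderOf η = Nat.card Fˣ := orderOf_eq_card_of_forall_mem_zpowers hη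
  set q₀ := Nat.card ↥(fixedField σ) with hq₀
  have hσa : ∀ a : F, σ a = a ^ q₀ := fun a => involution_apply σ hσ hq₀.symm a
  have hq : Nat.card F = q₀ ^ 2 := by rw [card_fixedField_pow σ, hσ]
  have hq₀2 : 2 ≤ q₀ := Finite.one_lt_card
  have hcardU : Nat.card Fˣ = q₀ ^ 2 - 1 := by rw [Nat.card_units, hq]
  have hq₀odd : Odd q₀ := by
    by_contra hev
    rw [Nat.not_odd_iff_even] at hev
    have hFodd : Odd (Nat.card Fˣ) := by
      rw [hcardU]
      exact Nat.Even.sub_odd (Nat.one_le_pow _ _ (by omega)) (hev.pow_of_ne_zero two_ne_zero) odd_one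
    refine hηsq ?_
    obtain ⟨m, hm⟩ := hFodd
    refine ⟨η ^ (m + 1), ?_⟩
    have h1 : η ^ (2 * m + 1) = 1 := by rw [← hm, ← hηo, pow_orderOf_eq_one]
    rw [← pow_add, show m + 1 + (m + 1) = 2 * m + 1 + 1 by omega, pow_succ, h1, one_mul]
  -- normalise to `diag(η, 1)`
  have hg : dAut η * fieldAut σ ∈ A := by
    have h3 := mem_of_isSquare hinner (d := dia η * d⁻¹) (by
      rw [map_mul, map_inv, det_dia]
      refine isSquare_mul_of_not hηsq fun ⟨c, hc⟩ => hsq ⟨c⁻¹, ?_⟩
      rw [← inv_inv (GeneralLinearGroup.det d), hc, mul_inv])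
    have h4 := mul_mem h3 hmem
    rwa [map_mul, map_inv, mul_assoc, inv_mul_cancel_left] at h4
  set g : AutL := dAut η * fieldAut σ with hgdef
  have hσσ : σ * σ = 1 := by rw [← pow_two, hσr]
  have hswap : ∀ a : Fˣ, fieldAut σ * dAut a = (dAut (a ^ q₀) : AutL) * fieldAut σ := fun a => by
    show fieldAut σ * conjAut (dia a) = conjAut (dia (a ^ q₀)) * fieldAut σ
    rw [fieldAut_mul_conjAut, map_dia]
    congr 3
    exact Units.ext (by simp [hσa])
  have hgg : g * g = dAut (η ^ (q₀ + 1)) := by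
    rw [hgdef, mul_assoc, ← mul_assoc (fieldAut σ : AutL), hswap, mul_assoc, ← map_mul fieldAut, hσσ,
      map_one, mul_one, ← map_mul, ← pow_succ']
  obtain ⟨m, hm⟩ := hq₀odd
  have h2 : (η ^ (q₀ + 1)) ^ m ≠ 1 := by
    rw [← pow_mul]
    refine pow_ne_one_of_lt_orderOf (Nat.mul_ne_zero (by omega) (by omega)) ?_
    rw [hηo, hcardU]
    have : q₀ ^ 2 = (q₀ + 1) * m + (q₀ + 1) * m + 1 := by rw [hm]; ring
    have : 0 < (q₀ + 1) * m := Nat.mul_pos (by omega) (by omega)
    omega
  have hz : (dAut (-1 : Fˣ) : AutL) ∈ zpowers g := by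
    have e : (η ^ (q₀ + 1)) ^ m = -1 := by
      have h1 : ((η ^ (q₀ + 1)) ^ m) ^ 2 = 1 := by
        rw [← pow_mul, ← pow_mul, show (q₀ + 1) * (m * 2) = q₀ ^ 2 - 1 from ?_, ← hcardU, ← hηo,
          pow_orderOf_eq_one]
        have : q₀ ^ 2 = (q₀ + 1) * (m * 2) + 1 := by rw [hm]; ring
        omega
      apply Units.ext
      have h3 := congrArg Units.val h1
      rw [Units.val_pow_eq_pow_val, Units.val_one, sq_eq_one_iff] at h3
      rw [Units.val_neg, Units.val_one]
      exact h3.resolve_left fun h => h2 (Units.ext h)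
    have := Subgroup.npow_mem_zpowers g (2 * m)
    rwa [pow_mul, pow_two, hgg, ← map_pow, e] at this
  have hneg : (-1 : Fˣ) ≠ 1 := by
    intro h
    apply h2
    apply Units.ext
    have h1 : ((η ^ (q₀ + 1)) ^ m) ^ 2 = 1 := by
      rw [← pow_mul, ← pow_mul, show (q₀ + 1) * (m * 2) = q₀ ^ 2 - 1 from ?_, ← hcardU, ← hηo,
        pow_orderOf_eq_one]
      have : q₀ ^ 2 = (q₀ + 1) * (m * 2) + 1 := by rw [hm]; ring
      omega
    have h3 := congrArg Units.val h1
    rw [Units.val_pow_eq_pow_val, Units.val_one, sq_eq_one_iff] at h3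
    have h4 : (-1 : F) = 1 := congrArg Units.val h
    rw [Units.val_one]
    exact h3.elim id fun h5 => h5.trans h4
  have hzo : orderOf (dAut (-1 : Fˣ) : AutL) = 2 := by
    rw [orderOf_injective dAut dAut_injective]
    exact orderOf_eq_prime (by rw [pow_two]; exact neg_one_mul _ |>.trans (neg_neg 1)) hneg
  have hzA : (dAut (-1 : Fˣ) : AutL) ∈ A := zpowers_le.2 hg hz
  have hwz : Commute (inn (weyl F) : AutL) (dAut (-1 : Fˣ)) := by
    show inn (weyl F) * dAut (-1 : Fˣ) = dAut (-1 : Fˣ) * inn (weyl F)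
    have := weyl_dAut (F := F) (-1)
    rw [inv_neg_one, mul_inv_eq_iff_eq_mul] at this
    exact this
  have hzg : Commute (dAut (-1 : Fˣ) : AutL) g := by
    obtain ⟨i, hi⟩ := hz
    rw [← hi]
    exact Commute.zpow_self g i
  obtain ⟨j, hj⟩ := ambient_conj_mem hA hzA hg (hinner (weyl F)) hzo hzg (Or.inr hz) hwz
  simp only at hj
  have hwf : fieldAut σ * inn (weyl F) = (inn (weyl F) : AutL) * fieldAut σ := by
    rw [fieldAut_inn]
    congr 2
    exact Subtype.ext (Matrix.ext fun i j => by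
      show σ ((weyl F : Matrix (Fin 2) (Fin 2) F) i j) = _
      fin_cases i <;> fin_cases j <;> simp [weyl])
  have hwg : inn (weyl F) * g * (inn (weyl F))⁻¹ = (dAut η⁻¹ : AutL) * fieldAut σ := by
    rw [← weyl_dAut η, hgdef]
    calc inn (weyl F) * (dAut η * fieldAut σ) * (inn (weyl F))⁻¹
        = inn (weyl F) * dAut η * (fieldAut σ * (inn (weyl F))⁻¹) := by group
      _ = inn (weyl F) * dAut η * ((inn (weyl F))⁻¹ * fieldAut σ) := by
          congr 1
          rw [eq_inv_mul_iff_mul_eq, ← mul_assoc, ← hwf, mul_inv_cancel_right]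
      _ = _ := by group
  rw [hwg] at hj
  rcases Int.even_or_odd j with ⟨i, rfl⟩ | ⟨i, rfl⟩
  · rw [← two_mul, zpow_mul, zpow_two, hgg, ← map_zpow] at hj
    have h1 : conjAut (dia ((η ^ (q₀ + 1)) ^ i)) * fieldAut 1 =
        (conjAut (dia η⁻¹) * fieldAut σ : AutL) := by
      rw [map_one, mul_one]; exact hj
    exact hr.ne_one (by rw [← hσ, ← (conj_field_inj le_rfl h1).1, orderOf_one])
  · rw [zpow_add_one, zpow_mul, zpow_two, hgg, ← map_zpow, hgdef, ← mul_assoc, ← map_mul] at hj
    have h1 := dAut_injective (mul_right_cancel hj)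
    rw [eq_inv_iff_mul_eq_one, mul_assoc, ← zpow_natCast η (q₀ + 1), ← zpow_mul] at h1
    rw [show η * η = η ^ (2 : ℤ) by rw [zpow_two], ← zpow_add, ← orderOf_dvd_iff_zpow_eq_one, hηo,
      hcardU] at h1
    have h2 : ((q₀ + 1 : ℕ) : ℤ) ∣ ((q₀ ^ 2 - 1 : ℕ) : ℤ) := by
      rw [Int.natCast_dvd_natCast]
      exact ⟨2 * m, by have : q₀ ^ 2 = (q₀ + 1) * (2 * m) + 1 := by rw [hm]; ring
                       omega⟩
    have h3 := h2.trans h1
    rw [dvd_add_right (dvd_mul_right _ _)] at h3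
    have h4 := Int.le_of_dvd two_pos h3
    push_cast at h4
    omega

end Cfsg.Agent.CycNorm
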